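import Cfsg.Agent.Lib.KC.Fin

/-! The search over class data with further pruning: definitions. -/

set_option autoImplicit false

namespace Cfsg.Agent.KC2
open KC
noncomputable section

scoped notation "WW!" => nat_lit 0x100000000000000000000
scoped notation "W6!" => nat_lit 0x1000000000000000000000000000000000000000000000000000000000000000000000000000000000000000000000000000000000000000000000000

/-- the key of an entry -/
def ky (x : En) : ℕ :=
  Nat.mod (Nat.add (Nat.mul (Nat.add (Nat.mul x.2.2 (nat_lit 0x100000000)) x.1) (nat_lit 256)) x.2.1) WW!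

/-- the key of a list -/
def kf (P : List En) : (ℕ → ℕ → Bool) → Bool :=
  List.rec (motive := fun _ => (ℕ → ℕ → Bool) → Bool) (fun k => k (nat_lit 0) W6!)
    (fun x _ ih k => ih fun K w => (fun v : ℕ => k (Nat.add K (Nat.mul (ky x) v)) v) (Nat.div w WW!)) P

/-- the list is outside the part -/
def outP (lo hi : ℕ) (P : List En) : Bool :=
  kf P fun K w => IF(Nat.ble hi K, true, Nat.ble (Nat.add K (MX(w, nat_lit 1))) lo)

def tC (Q o : ℕ) : Bool :=
  (fun d : ℕ => IF(Nat.beq d (nat_lit 1), false, IF(Nat.beq d o, false, true))) (Nat.gcd Q o)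

def prW (o c : ℕ) (R : List En) : ℕ :=
  List.rec (motive := fun _ => ℕ) o (fun y _ ih => IFN(DV(o, y.1), IFN(DV(y.2.2, c),
    IFN(DV(Nat.div y.1 o, Nat.div c y.2.2), ih, Nat.mul ih (Nat.div y.1 o)), ih), ih)) R

def tA (o c : ℕ) (R : List En) : Bool :=
  IF(DV(c, Nat.pow o (nat_lit 64)), false,
    (fun W : ℕ => (fun m : ℕ => IF(Nat.beq m (nat_lit 1), false, Nat.beq (Nat.gcd m W) (nat_lit 1)))
      (Nat.div c (Nat.gcd c (Nat.pow W (nat_lit 64))))) (prW o c R))

/-- number of entries -/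
def cn (P : List En) (p : En → Bool) : ℕ :=
  List.rec (motive := fun _ => ℕ) (nat_lit 0) (fun x _ ih => IFN(p x, Nat.succ ih, ih)) P

def tO (L : ℕ) (P : List En) : Bool :=
  IF(DV(nat_lit 16, L), true, IF(anyL P fun y => DV(nat_lit 8, y.1), true,
    IF(Nat.ble (nat_lit 2) (cn P fun y => Nat.beq y.1 (nat_lit 2)), true,
      IF(Nat.ble (nat_lit 2) (cn P fun y => Nat.beq y.1 (nat_lit 4)), true,
        IF(anyL P fun y => IF(Nat.beq y.1 (nat_lit 4), Nat.ble (nat_lit 2) y.2.1, false), true,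
          IF(anyL P fun y => IF(Nat.beq y.1 (nat_lit 2), IF(DV(nat_lit 8, y.2.2), false, true), false),
            IF(DV(nat_lit 8, L), true, anyL P fun y => DV(nat_lit 4, y.1)), false))))))

def tB (M L : ℕ) (P : List En) : Bool :=
  (fun t : ℕ => IF(Nat.ble (Nat.mul t t) (Nat.add t (Nat.mul M L)), false, true))
    (sm P (fun y => Nat.beq y.1 (nat_lit 2)) fun y => Nat.div L y.2.2)

def tL (P : List En) : Bool :=
  IF(Nat.ble (nat_lit 2) (cn P fun y => Nat.beq y.1 (nat_lit 2)),
    anyL P fun y => IF(Nat.beq y.2.2 (nat_lit 3), IF(Nat.beq y.1 (nat_lit 3), Nat.beq y.2.1 (nat_lit 1), false), false),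
    false)

/-- lower bound for the number of missing entries of order `m` -/
def ms (m q mg : ℕ) (P : List En) : ℕ :=
  (fun a : ℕ => IFN(TB(mg, m), MX(a, nat_lit 1), a))
    (Nat.sub (cn P fun y => IF(Nat.beq y.1 (Nat.mul m q), IF(DV(Nat.mul q q, y.2.2), false, true), false))
      (cn P fun y => IF(Nat.beq y.1 m, IF(DV(q, y.2.2), IF(DV(Nat.mul q q, y.2.2), false, true), false), false)))

def tS (left mg : ℕ) (P : List En) : Bool :=
  (fun a : ℕ => IF(Nat.ble a left,
      IF(Nat.beq (clr (ANT(mg, nat_lit 12)) (Nat.sub left a)) (nat_lit 0), false, true), true))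
    (Nat.add (ms (nat_lit 2) (nat_lit 3) mg P) (ms (nat_lit 3) (nat_lit 2) mg P))

def skip2 (M lo hi : ℕ) (σ : St) : Bool :=
  List.rec (motive := fun _ => Bool) false (fun x R _ =>
    IF(tC σ.Q x.1, true, IF(tA x.1 x.2.2 R, true, IF(IF(σ.t2, tO σ.L σ.P, false), true,
      IF(IF(TB(σ.prM, nat_lit 2), IF(tB M σ.L σ.P, true, tL σ.P), false), true,
        IF(IF(TB(σ.prM, nat_lit 6), tS σ.left σ.mgM σ.P, false), true, outP lo hi σ.P)))))) σ.P

def go2 (tabs : ℕ → List TE) (fin : ℕ → List En → Bool) (skip : St → Bool) (n : ℕ) : St → Bool :=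
  Nat.rec (motive := fun _ => St → Bool) (fun _ => false)
    (fun _ ih σ => IF(skip σ, true, step tabs fin ih σ)) n

end
end Cfsg.Agent.KC2
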