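import Cfsg.Agent.Lib.KC2.Skip

/-! The search over class data with further pruning: soundness. -/

set_option autoImplicit false

namespace Cfsg.Agent.KC2
open KC

/-- further arithmetical conditions -/
structure Ax2 (g : ℕ) (L : List En) : Prop where
  pr2 : ∀ x ∈ L, ∀ p : ℕ, p.Prime → p ∣ x.2.2 → ¬ p ∣ x.1 →
    ∃ y ∈ L, y.1 = x.1 * p ∧ y.2.2 ∣ x.2.2 ∧ ¬ p ∣ x.2.2 / y.2.2
  t4 : ∀ x ∈ L, ∀ a, x.1 = 2 ^ a → ¬ 8 ∣ x.2.2 →
    ((x.1 = 2 ∧ ¬ 8 ∣ g ∧ ∀ y ∈ L, ¬ 4 ∣ y.1) ∨ (x.1 = 4 ∧ x.2.1 = 1 ∧ ¬ 16 ∣ g ∧ ∀ y ∈ L, ¬ 8 ∣ y.1)) ∧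
      L.Pairwise fun y z => ¬ (y.1 = 2 ∧ z.1 = 2) ∧ ¬ (y.1 = 4 ∧ z.1 = 4)
  sq2 : ∀ m q : ℕ, q.Prime → ¬ q ∣ m → 1 < m → (L.filter fun x => x.1 = m * q ∧ ¬ q * q ∣ x.2.2).length ≤
    (L.filter fun x => x.1 = m ∧ q ∣ x.2.2 ∧ ¬ q * q ∣ x.2.2).length

/-- key and remaining weight -/
noncomputable def kg (W w0 : ℕ) (P : List En) : ℕ × ℕ :=
  List.rec (motive := fun _ => ℕ × ℕ) (nat_lit 0, w0)
    (fun x _ ih => (Nat.add ih.1 (Nat.mul (ky x) (Nat.div ih.2 W)), Nat.div ih.2 W)) P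

theorem kg_eq (W w0 : ℕ) (P : List En) (k : ℕ → ℕ → Bool) :
    List.rec (motive := fun _ => (ℕ → ℕ → Bool) → Bool) (fun k => k (nat_lit 0) w0)
      (fun x _ ih k => ih fun K w => (fun v : ℕ => k (Nat.add K (Nat.mul (ky x) v)) v) (Nat.div w W)) P k =
      k (kg W w0 P).1 (kg W w0 P).2 := by
  induction P generalizing k with
  | nil => rfl
  | cons x P ih => exact ih _

theorem kg_cons (W w0 : ℕ) (x : En) (P : List En) :
    (kg W w0 (x :: P)).1 = (kg W w0 P).1 + ky x * ((kg W w0 P).2 / W) ∧ (kg W w0 (x :: P)).2 = (kg W w0 P).2 / W :=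
  ⟨rfl, rfl⟩

/-- key and remaining weight -/
noncomputable def kv (P : List En) : ℕ × ℕ := kg WW! W6! P

theorem kf_eq (P : List En) (k : ℕ → ℕ → Bool) : kf P k = k (kv P).1 (kv P).2 := by
  unfold kf kv
  exact kg_eq _ _ P k

theorem kv_cons (x : En) (P : List En) : ∃ W, ky x < W ∧ (kv (x :: P)).1 = (kv P).1 + ky x * ((kv P).2 / W) ∧
    (kv (x :: P)).2 = (kv P).2 / W :=
  ⟨WW!, Nat.mod_lt _ (Nat.succ_pos (nat_lit 0xffffffffffffffffffff)), kg_cons _ _ x P⟩

theorem kv_append (S P : List En) : (kv P).1 ≤ (kv (S ++ P)).1 ∧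
    (kv (S ++ P)).1 + max (kv (S ++ P)).2 1 ≤ (kv P).1 + max (kv P).2 1 := by
  induction S with
  | nil => simp
  | cons x S ih =>
    obtain ⟨W, h1, e1, e2⟩ := kv_cons x (S ++ P)
    rw [List.cons_append, e1, e2]
    clear e1 e2
    generalize (kv (S ++ P)).2 = w at ih ⊢
    have h2 : W * (w / W) ≤ w := Nat.mul_div_le w W
    have h3 : (ky x + 1) * (w / W) ≤ W * (w / W) := Nat.mul_le_mul_right _ h1
    rw [add_mul, one_mul] at h3
    refine ⟨by omega, ?_⟩
    rcases Nat.eq_zero_or_pos (w / W) with h | h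
    · rw [h]; omega
    · omega

/-- the key of a list -/
noncomputable def key (L : List En) : ℕ := (kv L.reverse).1

theorem key_lt (L : List En) : key L < W6! := by
  have := (kv_append L.reverse []).2
  rw [List.append_nil] at this
  have h : (kv []).1 + max (kv []).2 1 = W6! := by decide
  unfold key; omega

theorem outP_sound {lo hi : ℕ} {P : List En} (h : outP lo hi P = true) (R : List En) :
    ¬ (lo ≤ key (P.reverse ++ R) ∧ key (P.reverse ++ R) < hi) := by
  unfold outP at h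
  rw [kf_eq, MX_eq, IF_eq, ble_eq', ble_eq'] at h
  have := kv_append R.reverse P
  simp only [key, List.reverse_append, List.reverse_reverse]
  simp only [decide_eq_true_eq, Nat.add_eq] at h
  split_ifs at h with h1
  · omega
  · have h2 : (kv P).1 + max (kv P).2 1 ≤ lo := by simpa using h
    omega

theorem cn_eq (P : List En) (p : En → Bool) : cn P p = P.countP p := by
  induction P with
  | nil => rfl
  | cons x P ih =>
    have e : cn (x :: P) p = IFN(p x, cn P p + 1, cn P p) := rfl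
    rw [e, ih, List.countP_cons]
    cases p x <;> simp

theorem pw_count {L : List En} {p : En → Bool} (h : L.Pairwise fun y z => ¬ (p y = true ∧ p z = true)) :
    L.countP p ≤ 1 := by
  induction L with
  | nil => simp
  | cons x L ih =>
    obtain ⟨h1, h2⟩ := List.pairwise_cons.1 h
    rw [List.countP_cons]
    split_ifs with h3
    · rw [List.countP_eq_zero.2 fun y hy e => h1 y hy ⟨h3, e⟩]
    · exact ih h2

theorem prW_spec (o c : ℕ) (R : List En) : o ∣ prW o c R ∧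
    ∀ y ∈ R, o ∣ y.1 → y.2.2 ∣ c → ¬ y.1 / o ∣ c / y.2.2 → y.1 / o ∣ prW o c R := by
  induction R with
  | nil => exact ⟨dvd_rfl, by simp⟩
  | cons y R ih =>
    have e : prW o c (y :: R) = IFN(DV(o, y.1), IFN(DV(y.2.2, c), IFN(DV(y.1 / o, c / y.2.2), prW o c R,
      prW o c R * (y.1 / o)), prW o c R), prW o c R) := rfl
    rw [e, DV_eq, DV_eq, DV_eq, IFN_eq, IFN_eq, IFN_eq]
    simp only [decide_eq_true_eq, List.forall_mem_cons]
    split_ifs with h1 h2 h3
    · exact ⟨ih.1, fun _ _ h => absurd h3 h, ih.2⟩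
    · exact ⟨ih.1.mul_right _, fun _ _ _ => Dvd.intro_left _ rfl, fun z a b c d => (ih.2 z a b c d).mul_right _⟩
    · exact ⟨ih.1, fun _ h => absurd h h2, ih.2⟩
    · exact ⟨ih.1, fun h => absurd h h1, ih.2⟩

theorem sum_split {R : List En} (hR : ∀ y ∈ R, 1 ≤ y.2.1) :
    (R.countP fun y => y.1 = 2) + (R.countP fun y => y.1 = 3) +
      sumS (R.filter fun y => y.1 ≠ 2 ∧ y.1 ≠ 3) ≤ sumS R := by
  induction R with
  | nil => simp [sumS]
  | cons x R ih =>
    have h1 := ih fun y hy => hR y (List.mem_cons_of_mem _ hy)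
    have h2 := hR x List.mem_cons_self
    simp only [sumS, List.countP_cons, List.filter_cons, List.map_cons, List.sum_cons] at h1 ⊢
    by_cases a : x.1 = 2
    · simp [a] at h1 ⊢; omega
    · by_cases b : x.1 = 3
      · simp [b] at h1 ⊢; omega
      · simp [a, b] at h1 ⊢; omega

section
variable {M : ℕ} {OL : List ℕ} {g : ℕ} {σ : St} {R : List En} (I : Inv M OL g σ R)
include I

theorem before {x : En} {R0 : List En} (hP : σ.P = x :: R0) {y : En} (hy : y ∈ R0) :
    le' y.2.2 y.1 y.2.1 x := by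
  have := I.ax.srt
  rw [hP, List.reverse_cons, List.append_assoc] at this
  exact (List.pairwise_append.1 this).2.2 y (by simpa using hy) x (by simp)

theorem after {x : En} (hx : x ∈ σ.P) {y : En} (hy : y ∈ R) : le' x.2.2 x.1 x.2.1 y :=
  (List.pairwise_append.1 I.ax.srt).2.2 x (by simpa using hx) y hy

theorem tC_sound {x : En} {R0 : List En} (hP : σ.P = x :: R0) (h : tC σ.Q x.1 = true) : False := by
  unfold tC at h
  simp only [IF_eq, beq_eq', decide_eq_true_eq] at h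
  split_ifs at h with h1 h2
  have hx : x ∈ σ.P.reverse ++ R := by simp [hP]
  obtain ⟨p, hp, h3⟩ := Nat.exists_prime_and_dvd h1
  have h4 : p ∣ x.1 := h3.trans (Nat.gcd_dvd_right _ _)
  have h5 : x.1 ≠ p := fun e => h2 (Nat.dvd_antisymm (Nat.gcd_dvd_right _ _) (by rw [e] at h3 ⊢; exact h3))
  obtain ⟨h6, y, hy, e⟩ := I.Qp p hp (h3.trans (Nat.gcd_dvd_left _ _))
  have hy' : y ∈ σ.P.reverse ++ R := by simp [hy]
  obtain ⟨z, hz, e1, e2⟩ := I.ax.dv x hx p hp.one_lt h4
  have hs : Std.Symm fun x y : En => x.1.Prime → y.1 = x.1 → x.1 * x.1 ∣ g :=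
    ⟨fun a b h h1 h2 => h2 ▸ h (h2 ▸ h1) h2.symm⟩
  have hyz : y = z := by
    by_contra e3
    exact h6 (e ▸ I.ax.uniq.forall hy' hz e3 (e ▸ hp) (e1.trans e.symm))
  subst hyz
  rw [hP] at hy
  rcases List.mem_cons.1 hy with rfl | hy
  · exact h5 e
  · have h7 := before I hP hy
    have h8 := Nat.le_of_dvd (by have := (I.ax.bas y hy').2.2.1; omega) e2
    have h9 := Nat.le_of_dvd (by have := (I.ax.bas x hx).1; omega) h4
    simp only [le'] at h7; omega

theorem tA_sound (A : Ax2 g (σ.P.reverse ++ R)) {x : En} {R0 : List En} (hP : σ.P = x :: R0)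
    (h : tA x.1 x.2.2 R0 = true) : False := by
  unfold tA at h
  simp only [IF_eq, beq_eq', decide_eq_true_eq] at h
  split_ifs at h with h1 h2
  have hx : x ∈ σ.P.reverse ++ R := by simp [hP]
  obtain ⟨p, hp, h3⟩ := Nat.exists_prime_and_dvd h2
  have h4 : ¬ p ∣ prW x.1 x.2.2 R0 := fun e =>
    hp.ne_one (Nat.dvd_one.1 ((of_decide_eq_true h) ▸ Nat.dvd_gcd h3 e))
  obtain ⟨h5, h6⟩ := prW_spec x.1 x.2.2 R0
  obtain ⟨y, hy, e1, e2, e3⟩ := A.pr2 x hx p hp (h3.trans (Nat.div_dvd_of_dvd (Nat.gcd_dvd_left _ _)))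
    fun e => h4 (e.trans h5)
  have h7 := (I.ax.bas x hx).1
  have h8 : y.1 / x.1 = p := by rw [e1, Nat.mul_div_cancel_left _ (by omega)]
  have h9 : x.1 < x.1 * p := by have := hp.two_le; nlinarith
  have h10 := Nat.le_of_dvd (by have := (I.ax.bas x hx).2.2.1; omega) e2
  rw [List.mem_append, List.mem_reverse] at hy
  rcases hy with hy | hy
  · rw [hP] at hy
    rcases List.mem_cons.1 hy with rfl | hy
    · omega
    · exact h4 (h8 ▸ h6 y hy (e1 ▸ Dvd.intro _ rfl) e2 (h8 ▸ e3))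
  · have := after I (x := x) (by simp [hP]) hy
    simp only [le'] at this; omega

theorem cnt_le (p : En → Bool) : σ.P.countP p ≤ (σ.P.reverse ++ R).countP p := by simp

theorem tO_sound (A : Ax2 g (σ.P.reverse ++ R)) (ht : σ.t2 = true) (h : tO σ.L σ.P = true) : False := by
  obtain ⟨x, hx, ⟨a, ha⟩, h8⟩ := I.t2 ht
  have hm : ∀ y ∈ σ.P, y ∈ σ.P.reverse ++ R := fun y hy => by simp [hy]
  obtain ⟨h1, h2⟩ := A.t4 x (hm x hx) a ha h8
  unfold tO at h
  simp only [DV_eq] at h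
  simp only [IF_eq, ble_eq', cn_eq, decide_eq_true_eq, anyL_iff, beq_eq'] at h
  split_ifs at h with c1 c2 c3 c4 c5 c6 c7
  · have := (show 16 ∣ σ.L from c1).trans I.Ld
    omega
  · obtain ⟨y, hy, e⟩ := c2
    have e' : 8 ∣ y.1 := e
    rcases h1 with h1 | h1
    · exact h1.2.2 y (hm y hy) (by omega)
    · exact h1.2.2.2 y (hm y hy) e'
  · have h3 := (cnt_le I _).trans (pw_count (p := fun y => decide (y.1 = nat_lit 2))
      (h2.imp fun h e => h.1 ⟨of_decide_eq_true e.1, of_decide_eq_true e.2⟩))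
    exact absurd (c3.trans h3) (by decide)
  · have h3 := (cnt_le I _).trans (pw_count (p := fun y => decide (y.1 = nat_lit 4))
      (h2.imp fun h e => h.2 ⟨of_decide_eq_true e.1, of_decide_eq_true e.2⟩))
    exact absurd (c4.trans h3) (by decide)
  · obtain ⟨y, hy, e⟩ := c5
    split_ifs at e with e1
    have e1' : y.1 = 4 := e1
    have e2 : 2 ≤ y.2.1 := of_decide_eq_true e
    rcases h1 with h1 | h1
    · exact h1.2.2 y (hm y hy) (by omega)
    · have hs : Std.Symm fun y z : En => ¬ (y.1 = 2 ∧ z.1 = 2) ∧ ¬ (y.1 = 4 ∧ z.1 = 4) :=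
        ⟨fun a b h => ⟨fun e => h.1 e.symm, fun e => h.2 e.symm⟩⟩
      exact (h2.forall (hm x hx) (hm y hy) (by rintro rfl; omega)).2 ⟨h1.1, e1'⟩
  · obtain ⟨y, hy, e⟩ := c6
    split_ifs at e with e1 e2
    have e1' : y.1 = 2 := e1
    have := (show 8 ∣ σ.L from c7).trans I.Ld
    rcases (A.t4 y (hm y hy) 1 e1' e2).1 with h3 | h3 <;> omega
  · obtain ⟨y, hy, e⟩ := c6
    split_ifs at e with e1 e2
    have e1' : y.1 = 2 := e1
    obtain ⟨z, hz, e3⟩ := anyL_iff.1 h
    rcases (A.t4 y (hm y hy) 1 e1' e2).1 with h3 | h3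
    · exact h3.2.2 z (hm z hz) (of_decide_eq_true e3)
    · omega

theorem tB_sound (F : Lf g (σ.P.reverse ++ R)) (h : tB M σ.L σ.P = true) : False := by
  unfold tB at h
  simp only [IF_eq, ble_eq', decide_eq_true_eq, sm_eq, beq_eq'] at h
  split_ifs at h with h1
  obtain ⟨u, hu⟩ := I.Ld
  have h2 := F.inv
  have h3 : (((σ.P.reverse ++ R).filter fun x => x.1 = 2 ∨ 2 * x.2.1 ∣ Nat.totient x.1).map fun x => x.2.1).sum ≤ M :=
    I.ax.sum ▸ (List.filter_sublist.map _).sum_le_sum (by simp)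
  have h4 : ((σ.P.filter fun y => decide (y.1 = nat_lit 2)).map fun y => Nat.div σ.L y.2.2).sum * u ≤
      nI g (σ.P.reverse ++ R) := by
    rw [nI, List.filter_append, List.map_append, List.sum_append, sum_rev, ← List.sum_map_mul_right]
    refine le_trans (le_of_eq ?_) (Nat.le_add_right _ _)
    refine congrArg _ (List.map_congr_left fun y hy => ?_)
    rw [hu]
    exact (Nat.div_mul_right_comm (I.Lc y (List.mem_filter.1 hy).1) u)
  have hu0 : 0 < u := Nat.pos_of_mul_pos_left (hu ▸ I.ax.gpos)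
  generalize ((σ.P.filter fun y => decide (y.1 = nat_lit 2)).map fun y => Nat.div σ.L y.2.2).sum = t at h1 h4
  generalize nI g (σ.P.reverse ++ R) = n at h2 h4
  replace h1 : t + M * σ.L < t * t := not_le.1 h1
  have h5 : n * n ≤ n + σ.L * u * M := h2.trans (hu ▸ Nat.add_le_add_left (Nat.mul_le_mul_left _ h3) _)
  obtain ⟨t, rfl⟩ : ∃ s, t = s + 1 := ⟨t - 1, by rcases t with _ | t <;> simp at h1 ⊢⟩
  obtain ⟨n, rfl⟩ : ∃ m, n = m + 1 := ⟨n - 1, by have := Nat.mul_pos t.succ_pos hu0; simp only [Nat.succ_eq_add_one] at this; omega⟩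
  have h6 : t ≤ n := by nlinarith
  have h7 : (t + 1) * u * t ≤ (n + 1) * n := Nat.mul_le_mul h4 h6
  have h8 : M * σ.L * u < (t + 1) * t * u := Nat.mul_lt_mul_of_pos_right (by nlinarith) hu0
  nlinarith

theorem tL_sound (F : Lf g (σ.P.reverse ++ R)) (h : tL σ.P = true) : False := by
  unfold tL at h
  simp only [IF_eq, ble_eq', cn_eq, decide_eq_true_eq, beq_eq'] at h
  split_ifs at h with h1
  obtain ⟨y, hy, e⟩ := anyL_iff.1 h
  split_ifs at e with e1 e2
  have : y = (3, 1, 3) := Prod.ext e2 (Prod.ext (of_decide_eq_true e) e1)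
  have h3 := (cnt_le I _).trans (pw_count (p := fun y => decide (y.1 = nat_lit 2))
    ((F.l3 (by simp [← this, hy])).imp fun h e => h ⟨of_decide_eq_true e.1, of_decide_eq_true e.2⟩))
  exact absurd (h1.trans h3) (by decide)

theorem ms_le (A : Ax2 g (σ.P.reverse ++ R)) {m q : ℕ} (hq : q.Prime) (h1 : ¬ q ∣ m) (h2 : 1 < m) :
    ms m q σ.mgM σ.P ≤ R.countP fun y => y.1 = m := by
  have h3 := A.sq2 m q hq h1 h2
  rw [← List.countP_eq_length_filter, ← List.countP_eq_length_filter, List.countP_append, List.countP_append,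
    List.countP_reverse, List.countP_reverse] at h3
  have h4 : (R.countP fun x => x.1 = m ∧ q ∣ x.2.2 ∧ ¬ q * q ∣ x.2.2) ≤ R.countP fun y => y.1 = m :=
    List.countP_mono_left fun x _ h => by simp at h ⊢; exact h.1
  have h5 : (cn σ.P fun y => IF(Nat.beq y.1 (Nat.mul m q), IF(DV(Nat.mul q q, y.2.2), false, true), false)) =
      σ.P.countP fun x => x.1 = m * q ∧ ¬ q * q ∣ x.2.2 := by
    rw [cn_eq]; refine List.countP_congr fun y _ => ?_
    rw [DV_eq]; simp [IF_eq, beq_eq']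
  have h6 : (cn σ.P fun y => IF(Nat.beq y.1 m, IF(DV(q, y.2.2), IF(DV(Nat.mul q q, y.2.2), false, true), false),
      false)) = σ.P.countP fun x => x.1 = m ∧ q ∣ x.2.2 ∧ ¬ q * q ∣ x.2.2 := by
    rw [cn_eq]; refine List.countP_congr fun y _ => ?_
    rw [DV_eq, DV_eq]; simp [IF_eq, beq_eq']
  unfold ms
  rw [h5, h6, TB_eq]
  simp only [IFN_eq, Nat.sub_eq, Nat.add_eq]
  split_ifs with h7
  · obtain ⟨y, hy, e⟩ := I.mgM m h7
    have : 0 < R.countP fun y => y.1 = m := List.countP_pos_iff.2 ⟨y, hy, by simpa using e⟩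
    omega
  · omega

theorem tS_sound (A : Ax2 g (σ.P.reverse ++ R)) (h : tS σ.left σ.mgM σ.P = true) : False := by
  have hR : ∀ y ∈ R, 1 ≤ y.2.1 := fun y hy => (I.ax.bas y (by simp [hy])).2.1
  have h1 := sum_split hR
  have h2 := ms_le I A Nat.prime_three (m := 2) (by decide) (by decide)
  have h3 := ms_le I A Nat.prime_two (m := 3) (by decide) (by decide)
  rw [← I.left] at h1
  unfold tS at h
  simp only [IF_eq, ble_eq', decide_eq_true_eq, beq_eq', Nat.add_eq, Nat.sub_eq] at h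
  change (if ms 2 3 σ.mgM σ.P + ms 3 2 σ.mgM σ.P ≤ σ.left then
    if clr _ (σ.left - (ms 2 3 σ.mgM σ.P + ms 3 2 σ.mgM σ.P)) = 0 then false else true else true) = true at h
  split_ifs at h with h4 h5
  · obtain ⟨V, e1, e2⟩ := clr_ne h5
    have := card_le_sumS (R := R.filter fun y => y.1 ≠ 2 ∧ y.1 ≠ 3)
      (fun y hy => hR y (List.mem_filter.1 hy).1) (V := V) fun v hv => by
        have := e2 v hv
        rw [tb_ant, Bool.and_eq_true] at this
        obtain ⟨y, hy, e⟩ := I.mgM v this.1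
        refine ⟨y, List.mem_filter.2 ⟨hy, decide_eq_true ⟨?_, ?_⟩⟩, e⟩ <;>
        · intro e'
          rw [← e, e'] at this
          exact absurd this.2 (by decide)
    omega
  · omega

end

theorem skip2_sound {M : ℕ} {OL : List ℕ} {lo hi : ℕ} {Q : ℕ → List En → Prop} {σ : St}
    (h : skip2 M lo hi σ = true) :
    Good M OL (fun g L => Ax2 g L → Lf g L → lo ≤ key L → key L < hi → Q g L) σ := by
  intro g R I A F k1 k2
  exfalso
  rcases hP : σ.P with _ | ⟨x, R0⟩
  · unfold skip2 at h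
    rw [hP] at h
    exact absurd h (by simp)
  have e : skip2 M lo hi σ = IF(tC σ.Q x.1, true, IF(tA x.1 x.2.2 R0, true, IF(IF(σ.t2, tO σ.L σ.P, false), true,
      IF(IF(TB(σ.prM, nat_lit 2), IF(tB M σ.L σ.P, true, tL σ.P), false), true,
        IF(IF(TB(σ.prM, nat_lit 6), tS σ.left σ.mgM σ.P, false), true, outP lo hi σ.P))))) := by
    unfold skip2
    generalize hl : σ.P = l
    conv_lhs => rw [← hl, hP]
    rw [← hl, hP]
  rw [e] at h
  simp only [IF_eq] at h
  split_ifs at h with c1 c2 c3 c4 c5 c6 c7 c8 c9 c10 c11 c12 c13 c14 c15 c16 c17 c18 c19 c20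
  all_goals first
    | exact tC_sound I hP ‹_›
    | exact tA_sound I A hP ‹_›
    | exact tO_sound I A ‹_› ‹_›
    | exact tB_sound I F ‹_›
    | exact tL_sound I F ‹_›
    | exact tS_sound I A ‹_›
    | exact outP_sound h R ⟨k1, k2⟩
    | contradiction

theorem go2_sound {M : ℕ} {OL : List ℕ} {tabs : ℕ → List TE} (hT : TabOK M tabs OL) {Q : ℕ → List En → Prop}
    {fin : ℕ → List En → Bool} (hfin : ∀ g P, Ax M g P.reverse → fin g P = true → Q g P.reverse)
    {skip : St → Bool} (hskip : ∀ σ, skip σ = true → Good M OL Q σ) (n : ℕ) :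
    ∀ σ, go2 tabs fin skip n σ = true → Good M OL Q σ := by
  induction n with
  | zero => intro σ h; exact absurd h (by simp [go2])
  | succ n ih =>
    intro σ h
    replace h : IF(skip σ, true, step tabs fin (go2 tabs fin skip n) σ) = true := h
    rw [IF_eq] at h
    split_ifs at h with h1
    · exact hskip σ h1
    · exact step_sound hT hfin ih h

/-- the leaves with key in an interval are in the list -/
def PQ (M : ℕ) (OL : List ℕ) (sv : List (ℕ × List En)) (lo hi : ℕ) : Prop :=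
  ∀ g L, Ax M g L → (∀ y ∈ L, y.1 ∈ OL) → Ax2 g L → Lf g L → lo ≤ key L → key L < hi → (g, L) ∈ sv

theorem PQ.trans {M : ℕ} {OL : List ℕ} {sv : List (ℕ × List En)} {a b c : ℕ} (h1 : PQ M OL sv a b)
    (h2 : PQ M OL sv b c) : PQ M OL sv a c := fun g L A O B F k1 k2 =>
  (lt_or_ge (key L) b).elim (h1 g L A O B F k1) fun k => h2 g L A O B F k k2

theorem pq_of {M : ℕ} {OL : List ℕ} {tabs : ℕ → List TE} (hT : TabOK M tabs OL) {sv : List (ℕ × List En)}
    {lo hi n : ℕ} (h : go2 tabs (finB sv) (skip2 M lo hi) n (st0 M) = true) : PQ M OL sv lo hi :=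
  fun g L A O => go2_sound hT
    (Q := fun g L => Ax2 g L → Lf g L → lo ≤ key L → key L < hi → (g, L) ∈ sv)
    (fun g P a b _ F _ _ => finB_sound g P a b F) (fun _ => skip2_sound) n _ h g L (inv_st0 A O)

theorem PQ.mem {M : ℕ} {OL : List ℕ} {sv : List (ℕ × List En)} (h : PQ M OL sv (nat_lit 0) W6!) {g : ℕ}
    {L : List En} (A : Ax M g L) (O : ∀ y ∈ L, y.1 ∈ OL) (B : Ax2 g L) (F : Lf g L) : (g, L) ∈ sv :=
  h g L A O B F (Nat.zero_le _) (key_lt L)

end Cfsg.Agent.KC2
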